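import Mathlib
import Cfsg.Agent.Lib.Helper46.FP.Defs
import Cfsg.Agent.Lib.Helper97.FP.Tools
import Cfsg.Agent.Lib.Helper87.FrobFix
import Cfsg.Agent.Lib.Helper90.BrauerWielandt

/-!
# S3814 team project, package P6: Lemma Y

A minimal counterexample `P` is a nonabelian special-like `a`-group of exponent `a` with
`P = [P, y]`; the four-group `⟨z0, z3⟩` has an element `e` with a fixed point on `P'`, so
`C_P(e) ≤ P'`, `e` is fixed-point-free on `P / P'`, and the Frobenius averaging argument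
shows that `y` is trivial on `P / P'`.
-/

set_option autoImplicit false
set_option linter.style.haveILetI false

namespace Cfsg.Agent.Lib.Helper89.FP

universe u

open Subgroup
open scoped commutatorElement

section gen

variable {G : Type u} [Group G]

/-- an element commuting with `h` commutes with all of `zpowers h` -/
theorem comm_of_mem_zpowers {g h y : G} (hg : g ∈ Subgroup.zpowers h) (hh : h * y = y * h) :
    g * y = y * g := by
  obtain ⟨n, rfl⟩ := Subgroup.mem_zpowers_iff.1 hg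
  exact (Commute.zpow_left (show Commute h y from hh) n).eq

/-- a nontrivial element of a group of prime order generates it -/
theorem gen_of_prime [Finite G] {g h : G} {p : ℕ} (hp : p.Prime) (hg : orderOf g = p)
    (hh : h ∈ Subgroup.zpowers g) (h1 : h ≠ 1) : g ∈ Subgroup.zpowers h := by
  have hle : Subgroup.zpowers h ≤ Subgroup.zpowers g := (Subgroup.zpowers_le).2 hh
  have hcard : Nat.card (Subgroup.zpowers g) ≤ Nat.card (Subgroup.zpowers h) := by
    rw [Nat.card_zpowers, Nat.card_zpowers, hg]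
    have hdvd : orderOf h ∣ p := by
      rw [← hg]
      exact orderOf_dvd_of_mem_zpowers hh
    rcases (Nat.dvd_prime hp).1 hdvd with h2 | h2
    · exact absurd (orderOf_eq_one_iff.1 h2) h1
    · exact h2.ge
  have h3 := Subgroup.eq_of_le_of_card_ge hle hcard
  rw [h3]
  exact Subgroup.mem_zpowers g

/-- the power formula in a group of class two -/
theorem mul_pow_class2 (u v z : G) (hz : v * u = z * u * v) (hzu : Commute z u)
    (hzv : Commute z v) :
    ∀ n : ℕ, (u * v) ^ n = u ^ n * v ^ n * z ^ (∑ i ∈ Finset.range n, i) ∧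
      v ^ n * u = z ^ n * u * v ^ n := by
  have hvk : ∀ k : ℕ, v ^ k * u = z ^ k * u * v ^ k := by
    intro k
    induction k with
    | zero => simp
    | succ k ih =>
      have h1 : v ^ k * z = z * v ^ k := ((hzv.pow_right k).eq).symm
      calc v ^ (k + 1) * u = v ^ k * (v * u) := by rw [pow_succ, mul_assoc]
        _ = v ^ k * (z * u * v) := by rw [hz]
        _ = (v ^ k * z) * u * v := by simp only [mul_assoc]
        _ = z * (v ^ k * u) * v := by rw [h1]; simp only [mul_assoc]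
        _ = z * (z ^ k * u * v ^ k) * v := by rw [ih]
        _ = z ^ (k + 1) * u * v ^ (k + 1) := by
          rw [pow_succ' z, pow_succ v]; simp only [mul_assoc]
  intro n
  refine ⟨?_, hvk n⟩
  induction n with
  | zero => simp
  | succ n ih =>
    have h1 : z ^ (∑ i ∈ Finset.range n, i) * u = u * z ^ (∑ i ∈ Finset.range n, i) :=
      (hzu.pow_left _).eq
    have h2 : z ^ (∑ i ∈ Finset.range n, i) * v = v * z ^ (∑ i ∈ Finset.range n, i) :=
      (hzv.pow_left _).eq
    have h3 : z ^ n * u = u * z ^ n := (hzu.pow_left _).eq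
    have h4 : z ^ n * v = v * z ^ n := (hzv.pow_left _).eq
    have h5 : z ^ n * v ^ n = v ^ n * z ^ n := ((hzv.pow_left n).pow_right n).eq
    calc (u * v) ^ (n + 1) = (u * v) ^ n * (u * v) := pow_succ _ _
      _ = u ^ n * v ^ n * z ^ (∑ i ∈ Finset.range n, i) * (u * v) := by rw [ih]
      _ = u ^ n * v ^ n * (z ^ (∑ i ∈ Finset.range n, i) * u) * v := by simp only [mul_assoc]
      _ = u ^ n * (v ^ n * u) * (z ^ (∑ i ∈ Finset.range n, i) * v) := by
        rw [h1]; simp only [mul_assoc]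
      _ = u ^ n * (z ^ n * u * v ^ n) * (v * z ^ (∑ i ∈ Finset.range n, i)) := by
        rw [hvk n, h2]
      _ = u ^ n * (z ^ n * u) * v ^ n * v * z ^ (∑ i ∈ Finset.range n, i) := by
        simp only [mul_assoc]
      _ = u ^ n * u * (z ^ n * v ^ n) * v * z ^ (∑ i ∈ Finset.range n, i) := by
        rw [h3]; simp only [mul_assoc]
      _ = u ^ n * u * v ^ n * (z ^ n * v) * z ^ (∑ i ∈ Finset.range n, i) := by
        rw [h5]; simp only [mul_assoc]
      _ = u ^ n * u * v ^ n * v * (z ^ n * z ^ (∑ i ∈ Finset.range n, i)) := by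
        rw [h4]; simp only [mul_assoc]
      _ = u ^ (n + 1) * v ^ (n + 1) * z ^ (∑ i ∈ Finset.range (n + 1), i) := by
        rw [Finset.sum_range_succ, pow_add z, pow_succ u, pow_succ v, ← pow_add, ← pow_add,
          add_comm n]
        simp only [mul_assoc]

/-- in a group of class two with central `a`-th powers, `a` odd, the `a`-th power map is
multiplicative -/
theorem mul_pow_of_class2 {a : ℕ} (ha : Odd a) (u v : G) (hzu : Commute ⁅v, u⁆ u)
    (hzv : Commute ⁅v, u⁆ v) (hva : Commute (v ^ a) u) : (u * v) ^ a = u ^ a * v ^ a := by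
  have hz : v * u = ⁅v, u⁆ * u * v := by
    rw [commutatorElement_def]; group
  obtain ⟨h1, h2⟩ := mul_pow_class2 u v ⁅v, u⁆ hz hzu hzv a
  have hza : ⁅v, u⁆ ^ a = 1 := by
    have h3 : ⁅v, u⁆ ^ a * u * v ^ a = u * v ^ a := by rw [← h2]; exact hva.eq
    have h4 : ⁅v, u⁆ ^ a * (u * v ^ a) = 1 * (u * v ^ a) := by rw [one_mul, ← mul_assoc]; exact h3
    exact mul_right_cancel h4
  have hdvd : a ∣ ∑ i ∈ Finset.range a, i := by
    have h5 : a ∣ (∑ i ∈ Finset.range a, i) * 2 := by
      rw [Finset.sum_range_id_mul_two]; exact dvd_mul_right _ _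
    exact (Nat.Coprime.dvd_mul_right (Nat.coprime_two_right.2 ha)).1 h5
  obtain ⟨m, hm⟩ := hdvd
  rw [h1, hm, pow_mul, hza, one_pow, mul_one]

/-- elements of `⟨z0, z3⟩` for commuting `z0, z3` -/
theorem mem_closure_pair_comm {z0 z3 : G} (hcomm : z0 * z3 = z3 * z0) :
    ∀ e ∈ Subgroup.closure ({z0, z3} : Set G), ∃ i j : ℤ, e = z0 ^ i * z3 ^ j := by
  have hc : Commute z0 z3 := hcomm
  intro e he
  induction he using Subgroup.closure_induction with
  | mem x hx =>
    rcases hx with rfl | hx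
    · exact ⟨1, 0, by simp⟩
    · rw [Set.mem_singleton_iff] at hx
      subst hx
      exact ⟨0, 1, by simp⟩
  | one => exact ⟨0, 0, by simp⟩
  | mul x y _ _ hx hy =>
    obtain ⟨i, j, rfl⟩ := hx
    obtain ⟨i', j', rfl⟩ := hy
    refine ⟨i + i', j + j', ?_⟩
    have h1 : z3 ^ j * z0 ^ i' = z0 ^ i' * z3 ^ j := ((hc.zpow_zpow i' j).eq).symm
    calc z0 ^ i * z3 ^ j * (z0 ^ i' * z3 ^ j') = z0 ^ i * (z3 ^ j * z0 ^ i') * z3 ^ j' := by
          simp only [mul_assoc]
      _ = z0 ^ i * (z0 ^ i' * z3 ^ j) * z3 ^ j' := by rw [h1]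
      _ = z0 ^ (i + i') * z3 ^ (j + j') := by rw [zpow_add, zpow_add]; simp only [mul_assoc]
  | inv x _ hx =>
    obtain ⟨i, j, rfl⟩ := hx
    refine ⟨-i, -j, ?_⟩
    have h1 : z3 ^ (-j) * z0 ^ (-i) = z0 ^ (-i) * z3 ^ (-j) := ((hc.zpow_zpow (-i) (-j)).eq).symm
    rw [mul_inv_rev, ← zpow_neg, ← zpow_neg, h1]

/-- the normalizers of `P` and `Y` normalize `⁅P, Y⁆` -/
theorem mem_normalizer_comm {P Y : Subgroup G} {g : G}
    (h1 : g ∈ Subgroup.normalizer (P : Set G)) (h2 : g ∈ Subgroup.normalizer (Y : Set G)) :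
    g ∈ Subgroup.normalizer ((⁅P, Y⁆ : Subgroup G) : Set G) := by
  rw [Subgroup.mem_normalizer_iff_map_conj_eq] at h1 h2 ⊢
  rw [Subgroup.map_commutator, h1, h2]

/-- if `Y` centralizes `X` and `P` normalizes `X`, then `⁅P, Y⁆` centralizes `X` -/
theorem central_of_comm (P X Y : Subgroup G) (hXP : ∀ u ∈ P, ∀ x ∈ X, u * x * u⁻¹ ∈ X)
    (hY : ∀ g ∈ Y, ∀ x ∈ X, g * x = x * g) : ∀ w ∈ ⁅P, Y⁆, ∀ x ∈ X, w * x = x * w := by
  have hle : ⁅P, Y⁆ ≤ Subgroup.centralizer (X : Set G) := by
    rw [Subgroup.commutator_le]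
    intro u hu g hg
    rw [Subgroup.mem_centralizer_iff]
    intro x hx
    have hx' : u⁻¹ * x * u⁻¹⁻¹ ∈ X := hXP u⁻¹ (P.inv_mem hu) x hx
    have h1 : g * (u⁻¹ * x * u⁻¹⁻¹) = (u⁻¹ * x * u⁻¹⁻¹) * g := hY g hg _ hx'
    have h2 : g * x = x * g := hY g hg x hx
    have h3 : g⁻¹ * x = x * g⁻¹ := by
      have : x = g * x * g⁻¹ := by rw [h2]; group
      calc g⁻¹ * x = g⁻¹ * (g * x * g⁻¹) := by rw [← this]
        _ = x * g⁻¹ := by group
    rw [commutatorElement_def]
    calc x * (u * g * u⁻¹ * g⁻¹) = u * ((u⁻¹ * x * u⁻¹⁻¹) * g) * u⁻¹ * g⁻¹ := by group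
      _ = u * (g * (u⁻¹ * x * u⁻¹⁻¹)) * u⁻¹ * g⁻¹ := by rw [h1]
      _ = u * g * u⁻¹ * (x * g⁻¹) := by group
      _ = u * g * u⁻¹ * (g⁻¹ * x) := by rw [h3]
      _ = u * g * u⁻¹ * g⁻¹ * x := by group
  intro w hw x hx
  exact (Subgroup.mem_centralizer_iff.1 (hle hw) x hx).symm

/-- conjugation preserves the subgroup generated by the `a`-th powers of `P` -/
theorem conj_mem_powClosure (P : Subgroup G) (a : ℕ) (g : G) (hg : ∀ k ∈ P, g * k * g⁻¹ ∈ P) :
    ∀ k ∈ Subgroup.closure ((fun u => u ^ a) '' (P : Set G)),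
      g * k * g⁻¹ ∈ Subgroup.closure ((fun u => u ^ a) '' (P : Set G)) := by
  intro k hk
  induction hk using Subgroup.closure_induction with
  | mem x hx =>
    obtain ⟨u, hu, rfl⟩ := hx
    apply Subgroup.subset_closure
    refine ⟨g * u * g⁻¹, hg u hu, ?_⟩
    show (g * u * g⁻¹) ^ a = g * u ^ a * g⁻¹
    exact conj_pow
  | one => simp
  | mul x y _ _ hx hy =>
    have h1 : g * (x * y) * g⁻¹ = (g * x * g⁻¹) * (g * y * g⁻¹) := by group
    rw [h1]
    exact Subgroup.mul_mem _ hx hy
  | inv x _ hx =>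
    have h1 : g * x⁻¹ * g⁻¹ = (g * x * g⁻¹)⁻¹ := by group
    rw [h1]
    exact Subgroup.inv_mem _ hx

/-- a nontrivial finite `a`-group is not generated by its `a`-th powers -/
theorem powClosure_ne [Finite G] {a : ℕ} (ha : a.Prime) (P : Subgroup G) (hP : IsPGroup a P)
    (hne : P ≠ ⊥) : Subgroup.closure ((fun u => u ^ a) '' (P : Set G)) ≠ P := by
  haveI : Fact a.Prime := ⟨ha⟩
  intro heq
  obtain ⟨n, hn⟩ := IsPGroup.iff_card.1 hP
  have hn0 : n ≠ 0 := by
    intro h0
    rw [h0, pow_zero] at hn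
    exact hne (Subgroup.card_eq_one.1 hn)
  obtain ⟨N, hN⟩ := Sylow.exists_subgroup_card_pow_prime a
    (show a ^ (n - 1) ∣ Nat.card ↥P from by rw [hn]; exact pow_dvd_pow a (Nat.sub_le n 1))
  have hidx : N.index = a := by
    have h1 := N.card_mul_index
    rw [hN, hn] at h1
    have h2 : a ^ n = a ^ (n - 1) * a := by
      rw [← pow_succ, Nat.sub_add_cancel (Nat.one_le_iff_ne_zero.2 hn0)]
    rw [h2] at h1
    exact Nat.eq_of_mul_eq_mul_left (pow_pos ha.pos _) h1
  haveI : N.Normal := by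
    apply Subgroup.normal_of_index_eq_minFac_card
    rw [hidx, hn, Nat.pow_minFac hn0, Nat.Prime.minFac_eq ha]
  have hle : Subgroup.closure ((fun u => u ^ a) '' (P : Set G)) ≤ N.map P.subtype := by
    rw [Subgroup.closure_le]
    rintro _ ⟨u, hu, rfl⟩
    have h1 : (⟨u, hu⟩ : ↥P) ^ a ∈ N := by
      have := N.pow_index_mem (⟨u, hu⟩ : ↥P)
      rwa [hidx] at this
    exact ⟨(⟨u, hu⟩ : ↥P) ^ a, h1, rfl⟩
  rw [heq] at hle
  have htop : N = ⊤ := by
    rw [eq_top_iff]
    intro x _
    obtain ⟨x', hx', hxx⟩ := hle x.2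
    have : x' = x := Subtype.ext hxx
    rwa [this] at hx'
  rw [htop, Subgroup.index_top] at hidx
  exact ha.one_lt.ne hidx

/-- exponent `a` for `⁅P, Y⁆` when `P` has class two with central `a`-th powers fixed by `Y` -/
theorem exp_of_class2 (P Y : Subgroup G) {a : ℕ} (ha : Odd a)
    (hYP : ∀ g ∈ Y, ∀ u ∈ P, g * u * g⁻¹ ∈ P)
    (h1 : ∀ u ∈ P, ∀ v ∈ P, ∀ w ∈ P, ⁅u, v⁆ * w = w * ⁅u, v⁆)
    (h2 : ∀ u ∈ P, ∀ v ∈ P, u ^ a * v = v * u ^ a)
    (h3 : ∀ g ∈ Y, ∀ u ∈ P, g * u ^ a = u ^ a * g) : ∀ w ∈ ⁅P, Y⁆, w ^ a = 1 := by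
  let Ω : Subgroup G :=
    { carrier := {u | u ∈ P ∧ u ^ a = 1}
      mul_mem' := by
        rintro u v ⟨hu, hua⟩ ⟨hv, hva⟩
        refine ⟨P.mul_mem hu hv, ?_⟩
        rw [mul_pow_of_class2 ha u v (h1 v hv u hu u hu) (h1 v hv u hu v hv) (h2 v hv u hu),
          hua, hva, one_mul]
      one_mem' := ⟨P.one_mem, one_pow a⟩
      inv_mem' := by
        rintro u ⟨hu, hua⟩
        exact ⟨P.inv_mem hu, by rw [inv_pow, hua, inv_one]⟩ }
  have hle : ⁅P, Y⁆ ≤ Ω := by
    rw [Subgroup.commutator_le]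
    intro u hu g hg
    have hgu : g * u⁻¹ * g⁻¹ ∈ P := hYP g hg _ (P.inv_mem hu)
    have h4 : ⁅u, g⁆ = u * (g * u⁻¹ * g⁻¹) := by rw [commutatorElement_def]; group
    have h5 : (u * (g * u⁻¹ * g⁻¹)) ^ a = u ^ a * (g * u⁻¹ * g⁻¹) ^ a :=
      mul_pow_of_class2 ha u _ (h1 _ hgu u hu u hu) (h1 _ hgu u hu _ hgu) (h2 _ hgu u hu)
    have h6 : (g * u⁻¹ * g⁻¹) ^ a = (u ^ a)⁻¹ := by
      rw [conj_pow, h3 g hg _ (P.inv_mem hu), inv_pow]
      group
    rw [h4]
    refine ⟨P.mul_mem hu hgu, ?_⟩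
    rw [h5, h6, mul_inv_cancel]
  intro w hw
  exact (hle hw).2

/-- the conjugation action of the normalizer of `P` on the abelianization of `P` -/
def rho (P : Subgroup G) :
    ↥(Subgroup.normalizer (P : Set G)) →* MulAut (Abelianization ↥P) where
  toFun g :=
    { toFun := Abelianization.map (Cfsg.Agent.Lib.Helper90.conjHom P g)
      invFun := Abelianization.map (Cfsg.Agent.Lib.Helper90.conjHom P g⁻¹)
      left_inv := by
        intro w
        rw [Abelianization.map_map_apply, ← Cfsg.Agent.Lib.Helper90.conjHom_mul, inv_mul_cancel,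
          Cfsg.Agent.Lib.Helper90.conjHom_one, Abelianization.map_id]
        rfl
      right_inv := by
        intro w
        rw [Abelianization.map_map_apply, ← Cfsg.Agent.Lib.Helper90.conjHom_mul, mul_inv_cancel,
          Cfsg.Agent.Lib.Helper90.conjHom_one, Abelianization.map_id]
        rfl
      map_mul' := fun x y => map_mul _ x y }
  map_one' := by
    apply MulEquiv.ext
    intro w
    show Abelianization.map (Cfsg.Agent.Lib.Helper90.conjHom P 1) w = w
    rw [Cfsg.Agent.Lib.Helper90.conjHom_one, Abelianization.map_id]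
    rfl
  map_mul' := by
    intro x y
    apply MulEquiv.ext
    intro w
    show Abelianization.map (Cfsg.Agent.Lib.Helper90.conjHom P (x * y)) w
      = Abelianization.map (Cfsg.Agent.Lib.Helper90.conjHom P x)
          (Abelianization.map (Cfsg.Agent.Lib.Helper90.conjHom P y) w)
    rw [Cfsg.Agent.Lib.Helper90.conjHom_mul, Abelianization.map_map_apply]

/-- the Frobenius step: if `e` (of order `c`) normalizes `⟨y⟩` and acts on it without fixed
points, and all fixed points of `e` on `P` lie in `P'`, then `y` is trivial on `P / P'`. -/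
theorem frob_step [Finite G] (P : Subgroup G) (y e : G) (a c : ℕ) (hc : c.Prime)
    (hyP : y ∈ Subgroup.normalizer (P : Set G)) (heP : e ∈ Subgroup.normalizer (P : Set G))
    (hey : e ∈ Subgroup.normalizer ((Subgroup.zpowers y : Subgroup G) : Set G))
    (hec : e ^ c = 1) (hcP : ¬ c ∣ Nat.card P)
    (hfix : ∀ x ∈ P, e * x = x * e → x ∈ ⁅P, P⁆)
    (hfpf : ∀ t ∈ Subgroup.zpowers e, t ≠ 1 → ∀ k ∈ Subgroup.zpowers y, t * k = k * t → k = 1)
    (hexp : ∀ u ∈ P, u ^ a = 1) (hcop : (orderOf y).Coprime a) :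
    ∀ g ∈ Subgroup.zpowers y, ∀ u ∈ P, g * u * g⁻¹ * u⁻¹ ∈ ⁅P, P⁆ := by
  classical
  haveI : Fact c.Prime := ⟨hc⟩
  -- `e` is fixed-point-free on the abelianization
  have heN : ({e} : Set G) ⊆ (Subgroup.normalizer (P : Set G) : Set G) := by
    intro s hs
    rw [Set.mem_singleton_iff] at hs
    rw [hs]
    exact heP
  let e' : ↥(Subgroup.normalizer (P : Set G)) := ⟨e, heP⟩
  let S : AddSubgroup (Additive (Abelianization ↥P)) :=
    AddMonoidHom.eqLocus (Cfsg.Agent.Lib.Helper90.thetaK P e') (AddMonoidHom.id _)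
  have hSmem : ∀ v, v ∈ S ↔ ∀ s (hs : s ∈ ({e} : Set G)),
      Cfsg.Agent.Lib.Helper90.thetaK P ⟨s, heN hs⟩ v = v := by
    intro v
    constructor
    · intro hv s hs
      have hs' : s = e := hs
      subst hs'
      exact hv
    · intro h
      exact h e rfl
  have hpg : IsPGroup c (Subgroup.closure ({e} : Set G)) := by
    rw [← Subgroup.zpowers_eq_closure]
    exact Cfsg.Agent.Lib.Helper90.isPGroup_zpowers e 1 (by rwa [pow_one])
  have hcard := Cfsg.Agent.Lib.Helper90.card_centralizer_quot_closure P {e} heN hpg hcP S hSmem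
  have heq : P ⊓ Subgroup.centralizer ({e} : Set G) = ⁅P, P⁆ ⊓ Subgroup.centralizer ({e} : Set G) := by
    apply le_antisymm
    · intro x hx
      rw [Subgroup.mem_inf] at hx ⊢
      exact ⟨hfix x hx.1 (Subgroup.mem_centralizer_iff.1 hx.2 e rfl), hx.2⟩
    · exact inf_le_inf_right _ (Subgroup.commutator_le_self P)
  rw [heq] at hcard
  have hS1 : Nat.card S = 1 := by
    have hpos : 0 < Nat.card ↥(⁅P, P⁆ ⊓ Subgroup.centralizer ({e} : Set G)) := Nat.card_pos
    exact Nat.eq_of_mul_eq_mul_left hpos (by rw [mul_one]; exact hcard.symm)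
  have hSbot : ∀ v, Cfsg.Agent.Lib.Helper90.thetaK P e' v = v → v = 0 := by
    intro v hv
    have hvS : v ∈ S := hv
    rw [AddSubgroup.card_eq_one.1 hS1] at hvS
    exact AddSubgroup.mem_bot.1 hvS
  -- the Frobenius averaging argument
  let L : Subgroup G := Subgroup.normalizer (P : Set G) ⊓
    Subgroup.normalizer ((Subgroup.zpowers y : Subgroup G) : Set G)
  have hyL : y ∈ L := ⟨hyP, Subgroup.le_normalizer (Subgroup.mem_zpowers y)⟩
  have heL : e ∈ L := ⟨heP, hey⟩
  have hzyL : Subgroup.zpowers y ≤ L := (Subgroup.zpowers_le).2 hyL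
  have hzeL : Subgroup.zpowers e ≤ L := (Subgroup.zpowers_le).2 heL
  let ρ : ↥L →* MulAut (Abelianization ↥P) := (rho P).comp (Subgroup.inclusion inf_le_left)
  let K : Subgroup ↥L := (Subgroup.zpowers y).subgroupOf L
  haveI : K.Normal := Subgroup.normal_subgroupOf_of_le_normalizer inf_le_right
  haveI : Fintype K := Fintype.ofFinite K
  haveI : Fintype ↥(Subgroup.zpowers e) := Fintype.ofFinite _
  let j : ↥(Subgroup.zpowers e) →* ↥L := Subgroup.inclusion hzeL
  have h_fpf : ∀ t : ↥(Subgroup.zpowers e), t ≠ 1 → ∀ k ∈ K, j t * k * (j t)⁻¹ = k → k = 1 := by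
    intro t ht k hk hcomm
    have hkz : (k : G) ∈ Subgroup.zpowers y := Subgroup.mem_subgroupOf.1 hk
    have h1 : (t : G) * (k : G) * (t : G)⁻¹ = (k : G) := congrArg Subtype.val hcomm
    have h2 : (t : G) * (k : G) = (k : G) * (t : G) := mul_inv_eq_iff_eq_mul.1 h1
    have h3 := hfpf (t : G) t.2 (fun h => ht (Subtype.ext h)) (k : G) hkz h2
    exact Subtype.ext h3
  have h_norm : ∀ w ∈ (⊤ : Subgroup (Abelianization ↥P)),
      ∏ t : ↥(Subgroup.zpowers e), ρ (j t) w = 1 := by
    intro w _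
    let e₀ : ↥(Subgroup.zpowers e) := ⟨e, Subgroup.mem_zpowers e⟩
    have hfix_s : ρ (j e₀) (∏ t : ↥(Subgroup.zpowers e), ρ (j t) w)
        = ∏ t : ↥(Subgroup.zpowers e), ρ (j t) w := by
      rw [map_prod]
      rw [← Equiv.prod_comp (Equiv.mulLeft e₀) (fun t => ρ (j t) w)]
      apply Finset.prod_congr rfl
      intro t _
      show ρ (j e₀) (ρ (j t) w) = ρ (j (e₀ * t)) w
      rw [map_mul, map_mul]
      rfl
    have h0 : Cfsg.Agent.Lib.Helper90.thetaK P e'
        (Additive.ofMul (∏ t : ↥(Subgroup.zpowers e), ρ (j t) w))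
        = Additive.ofMul (∏ t : ↥(Subgroup.zpowers e), ρ (j t) w) := by
      have h00 : Cfsg.Agent.Lib.Helper90.thetaK P e'
          (Additive.ofMul (∏ t : ↥(Subgroup.zpowers e), ρ (j t) w))
          = Additive.ofMul (ρ (j e₀) (∏ t : ↥(Subgroup.zpowers e), ρ (j t) w)) := rfl
      rw [h00, hfix_s]
    exact ofMul_eq_zero.1 (hSbot _ h0)
  have h_exp : ∀ w ∈ (⊤ : Subgroup (Abelianization ↥P)), ∃ m : ℕ, w ^ a ^ m = 1 := by
    intro w _
    obtain ⟨k, rfl⟩ := QuotientGroup.mk_surjective w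
    refine ⟨1, ?_⟩
    have hk : k ^ a = 1 := Subtype.ext (by simpa using hexp k k.2)
    show (Abelianization.of k) ^ a ^ 1 = 1
    rw [pow_one, ← map_pow, hk, map_one]
  have h_cop : (Fintype.card K).Coprime a := by
    have h1 : Fintype.card K = orderOf y := by
      rw [← Nat.card_eq_fintype_card, ← Nat.card_zpowers]
      exact Nat.card_congr (Subgroup.subgroupOfEquivOfLe hzyL).toEquiv
    rw [h1]
    exact hcop
  have hres := Cfsg.Agent.Lib.Helper87.frob_fix ρ K j h_fpf ⊤ (fun _ _ _ => Subgroup.mem_top _)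
    h_norm h_exp h_cop
  intro g hg u hu
  have hgL : g ∈ L := hzyL hg
  have h1 := hres ⟨g, hgL⟩ (Subgroup.mem_subgroupOf.2 hg) (Abelianization.of ⟨u, hu⟩)
    (Subgroup.mem_top _)
  have h2 : ρ ⟨g, hgL⟩ (Abelianization.of (⟨u, hu⟩ : ↥P))
      = Abelianization.of (⟨g * u * g⁻¹,
          (Subgroup.mem_normalizer_iff.1 hgL.1 u).1 hu⟩ : ↥P) := rfl
  rw [h2] at h1
  exact (Cfsg.Agent.Lib.Helper90.abelianization_of_eq_iff P _ _).1 h1

end gen

/-- **Lemma Y** (package P6 of the S3814 project). -/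
theorem lemY : Cfsg.Agent.Lib.Helper46.FP.LemY.{u} := by
  intro G _ _ a b c ha hb hc hab hac hbc hca A hA y z0 z3 hy hz0 hz3 hyA hz0A hz3A hz03 hz3y
    hz0y hz0y' hfpf hcyc habel
  classical
  haveI : Fact a.Prime := ⟨ha⟩
  haveI : Fact b.Prime := ⟨hb⟩
  haveI : Fact c.Prime := ⟨hc⟩
  have haodd : Odd a := by
    rcases ha.eq_two_or_odd' with h | h
    · exfalso
      rw [h] at hca
      have h1 := Nat.le_of_dvd (by norm_num) hca
      have h2 := hc.two_le
      omega
    · exact h
  have hz0ne : z0 ≠ 1 := by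
    intro h
    rw [h, orderOf_one] at hz0
    exact hc.one_lt.ne hz0
  have hz3ne : z3 ≠ 1 := by
    intro h
    rw [h, orderOf_one] at hz3
    exact hc.one_lt.ne hz3
  have hz0c : z0 ^ c = 1 := by rw [← hz0]; exact pow_orderOf_eq_one z0
  have hz3c : z3 ^ c = 1 := by rw [← hz3]; exact pow_orderOf_eq_one z3
  have hcopba : Nat.Coprime b a := (Nat.coprime_primes hb ha).2 (Ne.symm hab)
  -- the group `L = ⟨y, z0, z3⟩`
  let L : Subgroup G := Subgroup.closure {y, z0, z3}
  have hyL : y ∈ L := Subgroup.subset_closure (by simp)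
  have hz0L : z0 ∈ L := Subgroup.subset_closure (by simp)
  have hz3L : z3 ∈ L := Subgroup.subset_closure (by simp)
  have hzyL : Subgroup.zpowers y ≤ L := (Subgroup.zpowers_le).2 hyL
  have hEL : Subgroup.closure ({z0, z3} : Set G) ≤ L := by
    rw [Subgroup.closure_le]
    intro x hx
    rcases hx with rfl | hx
    · exact hz0L
    · rw [Set.mem_singleton_iff] at hx
      rw [hx]
      exact hz3L
  have hLA : L ≤ Subgroup.normalizer (A : Set G) := by
    rw [Subgroup.closure_le]
    intro g hg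
    rcases hg with rfl | rfl | hg
    · exact Cfsg.Agent.Lib.Helper97.FP.mem_normalizer_of_conj_mem A _ hyA
    · exact Cfsg.Agent.Lib.Helper97.FP.mem_normalizer_of_conj_mem A _ hz0A
    · rw [Set.mem_singleton_iff] at hg
      rw [hg]
      exact Cfsg.Agent.Lib.Helper97.FP.mem_normalizer_of_conj_mem A _ hz3A
  have hLy : L ≤ Subgroup.normalizer ((Subgroup.zpowers y : Subgroup G) : Set G) := by
    rw [Subgroup.closure_le]
    intro g hg
    rcases hg with rfl | rfl | hg
    · exact Subgroup.le_normalizer (Subgroup.mem_zpowers _)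
    · apply Cfsg.Agent.Lib.Helper97.FP.mem_normalizer_of_conj_mem
      intro k hk
      obtain ⟨n, rfl⟩ := Subgroup.mem_zpowers_iff.1 hk
      rw [← conj_zpow]
      exact Subgroup.zpow_mem _ hz0y n
    · rw [Set.mem_singleton_iff] at hg
      rw [hg]
      apply Cfsg.Agent.Lib.Helper97.FP.mem_normalizer_of_conj_mem
      intro k hk
      have h1 : k * z3 = z3 * k := comm_of_mem_zpowers hk hz3y.symm
      rw [← h1, mul_inv_cancel_right]
      exact hk
  -- facts about `E = ⟨z0, z3⟩`
  have hz3nz0 : z3 ∉ Subgroup.zpowers z0 := by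
    intro h
    have h1 : z0 ∈ Subgroup.zpowers z3 := gen_of_prime hc hz0 h hz3ne
    exact hz0y' (comm_of_mem_zpowers h1 hz3y)
  have hE1 := mem_closure_pair_comm hz03
  have hE2 : ∀ e ∈ Subgroup.closure ({z0, z3} : Set G), e ^ c = 1 := by
    intro e he
    obtain ⟨i, j, rfl⟩ := hE1 e he
    have hcm : Commute (z0 ^ i) (z3 ^ j) := (show Commute z0 z3 from hz03).zpow_zpow i j
    rw [hcm.mul_pow, ← zpow_natCast, ← zpow_natCast, ← zpow_mul, ← zpow_mul, mul_comm i,
      mul_comm j, zpow_mul, zpow_mul, zpow_natCast, zpow_natCast, hz0c, hz3c, one_zpow, one_zpow,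
      one_mul]
  have hE3 : ∀ e ∈ Subgroup.closure ({z0, z3} : Set G), e * y = y * e →
      e ∈ Subgroup.zpowers z3 := by
    intro e he hey
    obtain ⟨i, j, rfl⟩ := hE1 e he
    have h1 : Commute (z3 ^ j) y := (show Commute z3 y from hz3y).zpow_left j
    have h2 : Commute (z0 ^ i * z3 ^ j * (z3 ^ j)⁻¹) y :=
      (show Commute (z0 ^ i * z3 ^ j) y from hey).mul_left h1.inv_left
    rw [mul_inv_cancel_right] at h2
    have h3 : z0 ^ i = 1 := by
      by_contra hne
      have h4 : z0 ∈ Subgroup.zpowers (z0 ^ i) :=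
        gen_of_prime hc hz0 (Subgroup.zpow_mem_zpowers z0 i) hne
      exact hz0y' (comm_of_mem_zpowers h4 h2.eq)
    rw [h3, one_mul]
    exact Subgroup.zpow_mem_zpowers z3 j
  have hE4 : ∀ e ∈ Subgroup.zpowers z3, e ≠ 1 → ∀ x ∈ A, e * x = x * e → x = 1 := by
    intro e he he1 x hx hex
    have h1 : z3 ∈ Subgroup.zpowers e := gen_of_prime hc hz3 he he1
    exact hfpf x hx (comm_of_mem_zpowers h1 hex)
  have hE5 : ∀ e ∈ Subgroup.closure ({z0, z3} : Set G), ¬ (e * y = y * e) →
      ∀ t ∈ Subgroup.zpowers e, t ≠ 1 → ∀ k ∈ Subgroup.zpowers y, t * k = k * t → k = 1 := by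
    intro e he hey t ht ht1 k hk htk
    by_contra hk1
    have he1 : e ≠ 1 := by
      intro h
      apply hey
      rw [h, one_mul, mul_one]
    have hoe : orderOf e = c := orderOf_eq_prime (hE2 e he) he1
    have h1 : e ∈ Subgroup.zpowers t := gen_of_prime hc hoe ht ht1
    have h2 : y ∈ Subgroup.zpowers k := gen_of_prime hb hy hk hk1
    have h3 : e * k = k * e := comm_of_mem_zpowers h1 htk
    exact hey (comm_of_mem_zpowers h2 h3.symm).symm
  -- the main induction
  have main : ∀ n : ℕ, ∀ P : Subgroup G, Nat.card P ≤ n → P ≤ A →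
      L ≤ Subgroup.normalizer (P : Set G) → ∀ x ∈ P, y * x = x * y := by
    intro n
    induction n with
    | zero =>
      intro P hP
      have := Nat.card_pos (α := ↥P)
      omega
    | succ n ih =>
      intro P hPn hPA hLP
      by_contra hcon
      have IH : ∀ X : Subgroup G, X ≤ P → X ≠ P → L ≤ Subgroup.normalizer (X : Set G) →
          ∀ x ∈ X, y * x = x * y := by
        intro X hXP hne hLX
        apply ih X _ (hXP.trans hPA) hLX
        by_contra hlt
        apply hne
        exact Subgroup.eq_of_le_of_card_ge hXP (by omega)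
      have hPa : IsPGroup a P := hA.to_le hPA
      have hyP : ∀ k ∈ P, y * k * y⁻¹ ∈ P :=
        fun k hk => (Subgroup.mem_normalizer_iff.1 (hLP hyL) k).1 hk
      obtain ⟨m, hm⟩ := IsPGroup.iff_card.1 hPa
      have hcopyP : Nat.Coprime (orderOf y) (Nat.card P) := by
        rw [hm, hy]
        exact Nat.Coprime.pow_right m hcopba
      have hcP : ¬ c ∣ Nat.card P := by
        rw [hm]
        intro h
        exact hac ((Nat.prime_dvd_prime_iff_eq hc ha).1 (hc.dvd_of_dvd_pow h)).symm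
      -- `P = [P, y]`
      have hQP : ⁅P, Subgroup.zpowers y⁆ ≤ P := by
        rw [Subgroup.commutator_le]
        intro u hu g hg
        have hgP : g ∈ Subgroup.normalizer (P : Set G) := hLP (hzyL hg)
        have h1 := (Subgroup.mem_normalizer_iff.1 hgP u⁻¹).1 (P.inv_mem hu)
        have h2 : ⁅u, g⁆ = u * (g * u⁻¹ * g⁻¹) := by rw [commutatorElement_def]; group
        rw [h2]
        exact P.mul_mem hu h1
      have hLQ : L ≤ Subgroup.normalizer ((⁅P, Subgroup.zpowers y⁆ : Subgroup G) : Set G) :=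
        fun g hg => mem_normalizer_comm (hLP hg) (hLy hg)
      have hQeq : ⁅P, Subgroup.zpowers y⁆ = P := by
        by_contra hne
        have hcQ := IH _ hQP hne hLQ
        apply hcon
        apply Cfsg.Agent.Lib.Helper97.FP.tool_CPa P y hyP hcopyP
        intro k hk
        have h1 : k * y * k⁻¹ * y⁻¹ ∈ ⁅P, Subgroup.zpowers y⁆ :=
          Subgroup.commutator_mem_commutator hk (Subgroup.mem_zpowers y)
        exact hcQ _ h1
      -- `P' ≠ 1`, `P' ≠ P`, and `P'` is central
      have hP'P : ⁅P, P⁆ ≤ P := Subgroup.commutator_le_self P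
      have hPnb : ⁅P, P⁆ ≠ ⊥ := by
        intro hbot
        apply hcon
        apply habel P hPA _ hyP
        intro x hx x' hx'
        have h1 : ⁅x, x'⁆ ∈ ⁅P, P⁆ := Subgroup.commutator_mem_commutator hx hx'
        rw [hbot, Subgroup.mem_bot, commutatorElement_eq_one_iff_mul_comm] at h1
        exact h1
      have hPne : P ≠ ⊥ := by
        intro h
        apply hPnb
        rw [eq_bot_iff]
        exact hP'P.trans h.le
      have hP'ne : ⁅P, P⁆ ≠ P := by
        intro heq
        haveI : Nontrivial ↥P := (Subgroup.nontrivial_iff_ne_bot P).2 hPne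
        haveI : Group.IsNilpotent ↥P := hPa.isNilpotent
        have hlt := Group.IsSolvable.commutator_lt_top_of_nontrivial ↥P
        apply hlt.ne
        apply Subgroup.map_injective P.subtype_injective
        rw [Subgroup.map_subtype_commutator, heq, ← MonoidHom.range_eq_map, Subgroup.range_subtype]
      have hLP' : L ≤ Subgroup.normalizer ((⁅P, P⁆ : Subgroup G) : Set G) :=
        fun g hg => Cfsg.Agent.Lib.Helper90.mem_normalizer_commutator (hLP hg)
      have hyP' := IH _ hP'P hP'ne hLP'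
      have hcentral : ∀ u ∈ P, ∀ x ∈ ⁅P, P⁆, u * x = x * u := by
        have h1 := central_of_comm P ⁅P, P⁆ (Subgroup.zpowers y)
          (fun u hu x hx => (Subgroup.mem_normalizer_iff.1
            (Cfsg.Agent.Lib.Helper90.mem_normalizer_commutator (Subgroup.le_normalizer hu)) x).1 hx)
          (fun g hg x hx => comm_of_mem_zpowers hg (hyP' x hx))
        rw [hQeq] at h1
        exact h1
      -- exponent `a`
      have hQ0P : Subgroup.closure ((fun u => u ^ a) '' (P : Set G)) ≤ P := by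
        rw [Subgroup.closure_le]
        rintro _ ⟨u, hu, rfl⟩
        exact P.pow_mem hu a
      have hQ0ne : Subgroup.closure ((fun u => u ^ a) '' (P : Set G)) ≠ P :=
        powClosure_ne ha P hPa hPne
      have hLQ0 : L ≤ Subgroup.normalizer
          ((Subgroup.closure ((fun u => u ^ a) '' (P : Set G)) : Subgroup G) : Set G) := by
        intro g hg
        apply Cfsg.Agent.Lib.Helper97.FP.mem_normalizer_of_conj_mem
        exact conj_mem_powClosure P a g
          (fun k hk => (Subgroup.mem_normalizer_iff.1 (hLP hg) k).1 hk)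
      have hyQ0 := IH _ hQ0P hQ0ne hLQ0
      have hQ0c : ∀ u ∈ P, ∀ x ∈ Subgroup.closure ((fun u => u ^ a) '' (P : Set G)),
          u * x = x * u := by
        have h1 := central_of_comm P (Subgroup.closure ((fun u => u ^ a) '' (P : Set G)))
          (Subgroup.zpowers y)
          (fun u hu x hx => conj_mem_powClosure P a u
            (fun k hk => (Subgroup.mem_normalizer_iff.1 (Subgroup.le_normalizer hu) k).1 hk) x hx)
          (fun g hg x hx => comm_of_mem_zpowers hg (hyQ0 x hx))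
        rw [hQeq] at h1
        exact h1
      have hpowmem : ∀ u ∈ P, u ^ a ∈ Subgroup.closure ((fun u => u ^ a) '' (P : Set G)) :=
        fun u hu => Subgroup.subset_closure ⟨u, hu, rfl⟩
      have hexp : ∀ u ∈ P, u ^ a = 1 := by
        have h1 := exp_of_class2 P (Subgroup.zpowers y) haodd
          (fun g hg u hu => (Subgroup.mem_normalizer_iff.1 (hLP (hzyL hg)) u).1 hu)
          (fun u hu v hv w hw =>
            (hcentral w hw _ (Subgroup.commutator_mem_commutator hu hv)).symm)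
          (fun u hu v hv => (hQ0c v hv _ (hpowmem u hu)).symm)
          (fun g hg u hu => comm_of_mem_zpowers hg (hyQ0 _ (hpowmem u hu)))
        rw [hQeq] at h1
        exact h1
      -- an element of `E` with a fixed point on `P'`
      have hcP' : ¬ c ∣ Nat.card ↥(⁅P, P⁆ : Subgroup G) := by
        obtain ⟨m', hm'⟩ := IsPGroup.iff_card.1 (hPa.to_le hP'P)
        rw [hm']
        intro h
        exact hac ((Nat.prime_dvd_prime_iff_eq hc ha).1 (hc.dvd_of_dvd_pow h)).symm
      obtain ⟨e, heE, he1, w, hw, hw1, hew⟩ :=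
        Cfsg.Agent.Lib.Helper97.FP.tool_T1 c hc z0 z3 hz0 hz3 hz03 hz3nz0 ⁅P, P⁆ hPnb hcP'
          (fun x hx => (Subgroup.mem_normalizer_iff.1 (hLP' hz0L) x).1 hx)
          (fun x hx => (Subgroup.mem_normalizer_iff.1 (hLP' hz3L) x).1 hx)
      have hey : ¬ (e * y = y * e) := by
        intro h
        exact hw1 (hE4 e (hE3 e heE h) he1 w (hPA (hP'P hw)) hew)
      have hfix : ∀ x ∈ P, e * x = x * e → x ∈ ⁅P, P⁆ := by
        intro x hx hex
        by_cases hx1 : x = 1
        · rw [hx1]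
          exact Subgroup.one_mem _
        · have hox : orderOf x = a := orderOf_eq_prime (hexp x hx) hx1
          have how : orderOf w = a := orderOf_eq_prime (hexp w (hP'P hw)) hw1
          have h1 := hcyc e heE he1 w (hPA (hP'P hw)) x (hPA hx) hew hex
            (hcentral x hx w hw).symm how hox
          exact ((Subgroup.zpowers_le).2 hw) h1
      -- the Frobenius step
      have hfrob := frob_step P y e a c hc (hLP hyL) (hLP (hEL heE)) (hLy (hEL heE)) (hE2 e heE)
        hcP hfix (hE5 e heE hey) hexp (by rw [hy]; exact hcopba)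
      apply hP'ne
      apply le_antisymm hP'P
      have hfin : ⁅P, Subgroup.zpowers y⁆ ≤ ⁅P, P⁆ := by
        rw [Subgroup.commutator_le]
        intro u hu g hg
        have h1 := hfrob g hg u⁻¹ (P.inv_mem hu)
        have h2 : ⁅u, g⁆ = u * (g * u⁻¹ * g⁻¹ * u⁻¹⁻¹) * u⁻¹ := by
          rw [commutatorElement_def]; group
        rw [h2]
        exact (Subgroup.mem_normalizer_iff.1
          (Cfsg.Agent.Lib.Helper90.mem_normalizer_commutator (Subgroup.le_normalizer hu)) _).1 h1
      rw [hQeq] at hfin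
      exact hfin
  exact main _ A le_rfl le_rfl hLA

end Cfsg.Agent.Lib.Helper89.FP
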